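import Cfsg.Agent.H231.QF.HOne
import Cfsg.Agent.H590.F4.Layer

/-!
# S2491, row F4: the pairs `BF` from the complement `D` (P4b)

Central extensions `π : L → K`, `K = ²E₆(2)`; for the short roots `e` : `E e = ⁅V2_e~, P_e~⁆ ⊔ ⁅V_e~, V_e~⁆`. If `E b0 ⊓ ker π = ⊥`
then the root groups have lifts `Y b` with exact commutator relations, so the Sylow 2-subgroup of `K` splits in `L`, and the transfer
kills the 2-part of the kernel.
-/

set_option autoImplicit false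
set_option linter.unusedSectionVars false

namespace Cfsg.Agent.H326.QF.BFOf

open CoxeterSystem Cfsg.Agent.ChevalleyStructure.CoxeterGeom Cfsg.Agent.Tits.Roots Cfsg.Agent.Tits.Core
  Cfsg.Agent.Nodes Cfsg.Agent.Nodes.Reps Cfsg.Agent.Nodes.BNOf Cfsg.Agent.Nodes.RGDLib Cfsg.Agent.Nodes.Bruhat
  Cfsg.Agent.Nodes.OppDec Cfsg.Agent.Nodes.LeviDec Cfsg.Agent.Nodes.StabComb Cfsg.Agent.KFacts.RgdSL
  Cfsg.Agent.Nodes.RGDTwE6 Cfsg.Agent.KFacts.TwESix.Comb Cfsg.Agent.KFacts.TwESix.Btw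
open Cfsg.Lie Subgroup
open Cfsg.Agent.H326.QS.VP (Q conj_Q)
open Cfsg.Agent.H231.QF
open Cfsg.Agent.H231.QF.HOne (bti BX BX_comm mem_BX le_comm_T lg_iff st_iff)
open Cfsg.Agent.KFacts.TwESix.CentOrth (b0)
open Cfsg.Agent.H590.F4 (V2 DF BF)
open scoped commutatorElement

universe u v

/-! ### Tables -/

theorem tab_short : ∀ b ∈ rts, ∃ e ∈ rts, bf e e = 2 ∧ bf b e = 2 := by decide +kernel

theorem tab_split : ∀ b ∈ rts, bf b b = 4 → ∃ a ∈ rts, bf a a = 4 ∧ b - a ∈ rts ∧ bf (b - a) (b - a) = 4 ∧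
    bf a (b - a) = -2 := by decide +kernel

theorem tab_ls : ∀ a ∈ rts, bf a a = 4 → ∀ e ∈ rts, bf e e = 2 → bf a e = 2 ∨ bf a e = 0 ∨ bf a e = -2 := by
  decide +kernel

theorem tab_le : ∀ a ∈ rts, ∀ e ∈ rts, bf e e = 2 → bf a e ≤ 2 := by decide +kernel

theorem tab_pair : ∀ a ∈ rts, (∀ k, 0 ≤ a k) → ∀ b ∈ rts, (∀ k, 0 ≤ b k) → a ≠ b →
    ∃ e ∈ rts, bf e e = 2 ∧ ((bf b e = 2 ∧ 0 ≤ bf a e) ∨ (bf a e = 2 ∧ 0 ≤ bf b e) ∨ (bf a e = 1 ∧ bf b e = 1)) := by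
  decide +kernel

theorem tab_b0 : b0 ∈ rts ∧ bf b0 b0 = 2 := by decide +kernel

/-! ### The subgroups -/

/-- the second layer of the radical of the short root `e` -/
noncomputable def U2 {F : Type u} [Field F] (φ : F →+* F) (e : Fin 4 → ℤ) : Subgroup (KK F) :=
  RGD.Sup (X φ) (Q fun c => bf c e = 2)

/-- the radical of the parabolic subgroup of the short root `e` -/
noncomputable def U1 {F : Type u} [Field F] (φ : F →+* F) (e : Fin 4 → ℤ) : Subgroup (KK F) :=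
  RGD.Sup (X φ) (Q fun c => 0 < bf c e)

/-- the parabolic subgroup of the short root `e` -/
noncomputable def UP {F : Type u} [Field F] (φ : F →+* F) (e : Fin 4 → ℤ) : Subgroup (KK F) :=
  RGDTwE6.T F 2 ⊔ RGD.Sup (X φ) (Q fun c => 0 ≤ bf c e)

section Par

variable {F : Type u} [Field F] {φ : F →+* F}

theorem X_le_U2 {c e : Fin 4 → ℤ} (hc : c ∈ rts) (h : bf c e = 2) : X φ c ≤ U2 φ e :=
  RGD.le_Sup (S := Q fun c => bf c e = 2) ⟨hc, h⟩

theorem X_le_U1 {c e : Fin 4 → ℤ} (hc : c ∈ rts) (h : 0 < bf c e) : X φ c ≤ U1 φ e :=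
  RGD.le_Sup (S := Q fun c => 0 < bf c e) ⟨hc, h⟩

theorem X_le_UP {c e : Fin 4 → ℤ} (hc : c ∈ rts) (h : 0 ≤ bf c e) : X φ c ≤ UP φ e :=
  le_trans (RGD.le_Sup (S := Q fun c => 0 ≤ bf c e) ⟨hc, h⟩) le_sup_right

theorem T_le_UP {e : Fin 4 → ℤ} : RGDTwE6.T F 2 ≤ UP φ e := le_sup_left

theorem U2_b0_le : U2 φ b0 ≤ V2 φ := by
  refine RGD.Sup_le fun z hz => RGD.le_Sup (S := Q fun x => x 3 = 2) ⟨hz.1, ?_⟩
  have h : bf z b0 = 2 := hz.2
  rw [Cfsg.Agent.H590.F4.Lay.bf_b0] at h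
  exact h

theorem U1_b0_le : U1 φ b0 ≤ V φ j4 := by
  refine RGD.Sup_le fun z hz => RGD.le_Sup ?_
  rw [Cfsg.Agent.H590.F4.Lay.NotJ_eq]
  have h : 0 < bf z b0 := hz.2
  rw [Cfsg.Agent.H590.F4.Lay.bf_b0] at h
  exact ⟨hz.1, h⟩

theorem UP_b0_le : UP φ b0 ≤ P φ j4 := by
  refine sup_le ?_ (RGD.Sup_le fun z hz => ?_)
  · exact le_trans (le_sup_left : RGDTwE6.T F 2 ≤ Lv φ j4) le_sup_left
  · have hz2 : 0 ≤ bf z b0 := hz.2
    rcases eq_or_lt_of_le hz2 with h | h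
    · refine le_trans ?_ (le_sup_left : Lv φ j4 ≤ P φ j4)
      refine le_trans ?_ (le_sup_right : RGD.Sup (X φ) (RootsJ cs isCartan j4) ≤ Lv φ j4)
      refine RGD.le_Sup ?_
      rw [Cfsg.Agent.H590.F4.Lay.RootsJ_eq]
      rw [Cfsg.Agent.H590.F4.Lay.bf_b0] at h
      exact ⟨hz.1, h.symm⟩
    · refine le_trans ?_ (le_sup_right : V φ j4 ≤ P φ j4)
      exact le_trans (X_le_U1 hz.1 h) U1_b0_le

end Par

section L

variable {F : Type u} [Field F] [Fintype F] {φ : F →+* F} (hφ : ∀ t, φ t = t ^ 2) (hqq : ∀ t : F, (t ^ 2) ^ 2 = t)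
  {L : Type v} [Group L] {π : L →* KK F}

/-- `[V2_e~, P_e~] [V_e~, V_e~]` -/
noncomputable def E (φ : F →+* F) (π : L →* KK F) (e : Fin 4 → ℤ) : Subgroup L :=
  ⁅(U2 φ e).comap π, (UP φ e).comap π⁆ ⊔ ⁅(U1 φ e).comap π, (U1 φ e).comap π⁆

omit [Fintype F] in
theorem mem_E {e : Fin 4 → ℤ} {x y : L} (hx : π x ∈ U2 φ e) (hy : π y ∈ UP φ e) : ⁅x, y⁆ ∈ E φ π e :=
  (le_sup_left : _ ≤ E φ π e) (commutator_mem_commutator (show x ∈ (U2 φ e).comap π from hx)
    (show y ∈ (UP φ e).comap π from hy))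

omit [Fintype F] in
theorem mem_E' {e : Fin 4 → ℤ} {x y : L} (hx : π x ∈ UP φ e) (hy : π y ∈ U2 φ e) : ⁅x, y⁆ ∈ E φ π e := by
  rw [← commutatorElement_inv]
  exact inv_mem (mem_E hy hx)

omit [Fintype F] in
theorem mem_E1 {e : Fin 4 → ℤ} {x y : L} (hx : π x ∈ U1 φ e) (hy : π y ∈ U1 φ e) : ⁅x, y⁆ ∈ E φ π e :=
  (le_sup_right : _ ≤ E φ π e) (commutator_mem_commutator (show x ∈ (U1 φ e).comap π from hx)
    (show y ∈ (U1 φ e).comap π from hy))

include hφ hqq in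
/-- conjugation -/
theorem E_conj [CharP F 2] (hs : Function.Surjective π) (hc : π.ker ≤ center L) (h0 : E φ π b0 ⊓ π.ker = ⊥)
    {e : Fin 4 → ℤ} (he : e ∈ rts) (hl : bf e e = 2) : E φ π e ⊓ π.ker = ⊥ := by
  have : Fact (Nat.Prime 2) := ⟨Nat.prime_two⟩
  set R := rgd cs hφ hqq 2 with hR
  obtain ⟨w₁, h1⟩ := exists_rep_short cs ((mem_rts cs).2 he) hl
  obtain ⟨w₂, h2⟩ := exists_rep_short cs ((mem_rts cs).2 tab_b0.1) tab_b0.2
  set w := w₂ * w₁⁻¹ with hw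
  have hwr : rep cs isCartan w e = b0 := by
    rw [hw, rep_mul_apply, ← h1, rep_inv_apply, h2]
  obtain ⟨g, hg⟩ := exists_rp cs R.nsys w
  obtain ⟨gh, hgh⟩ := hs g
  have hQ : ∀ p : ℤ → Prop, ∀ x ∈ RGD.Sup (X φ) (Q fun c => p (bf c e)), g * x * g⁻¹ ∈
      RGD.Sup (X φ) (Q fun c => p (bf c b0)) := by
    intro p x hx
    refine conj_Q R hg (P' := fun c => p (bf c b0)) (fun c hc h => ?_) hx
    rw [← hwr, bf_rep]
    exact h
  have hP : ∀ x ∈ UP φ e, g * x * g⁻¹ ∈ UP φ b0 := by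
    have h3 : UP φ e ≤ (UP φ b0).comap (MulAut.conj g).toMonoidHom := by
      refine sup_le ?_ (fun x hx => ?_)
      · intro t ht
        refine T_le_UP ?_
        exact (mem_normalizer_iff.1 hg.mem_normalizer t).1 ht
      · exact (le_sup_right : RGD.Sup (X φ) (Q fun c => 0 ≤ bf c b0) ≤ UP φ b0) (hQ (fun k => 0 ≤ k) x hx)
    exact fun x hx => h3 hx
  have hE : ∀ x : L, x ∈ E φ π e → gh * x * gh⁻¹ ∈ E φ π b0 := by
    have h3 : E φ π e ≤ (E φ π b0).comap (MulAut.conj gh).toMonoidHom := by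
      rw [E]
      refine sup_le ?_ ?_ <;> rw [commutator_le] <;> intro x hx y hy <;>
        show gh * ⁅x, y⁆ * gh⁻¹ ∈ E φ π b0
      · have e : gh * ⁅x, y⁆ * gh⁻¹ = ⁅gh * x * gh⁻¹, gh * y * gh⁻¹⁆ := by
          rw [commutatorElement_def, commutatorElement_def]; group
        rw [e]
        refine mem_E ?_ ?_
        · rw [map_mul, map_mul, map_inv, hgh]
          exact hQ (fun k => k = 2) _ hx
        · rw [map_mul, map_mul, map_inv, hgh]
          exact hP _ hy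
      · have e : gh * ⁅x, y⁆ * gh⁻¹ = ⁅gh * x * gh⁻¹, gh * y * gh⁻¹⁆ := by
          rw [commutatorElement_def, commutatorElement_def]; group
        rw [e]
        refine mem_E1 ?_ ?_
        · rw [map_mul, map_mul, map_inv, hgh]
          exact hQ (fun k => 0 < k) _ hx
        · rw [map_mul, map_mul, map_inv, hgh]
          exact hQ (fun k => 0 < k) _ hy
    exact fun x hx => h3 hx
  rw [eq_bot_iff]
  rintro x ⟨hx, hx1⟩
  have h4 := hE x hx
  have h5 : gh * x * gh⁻¹ = x := by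
    rw [mem_center_iff.1 (hc hx1) gh, mul_inv_cancel_right]
  rw [h5] at h4
  rw [← h0]
  exact ⟨h4, hx1⟩

/-- the index type of the subgroups `E e` containing the lift of `X b` -/
abbrev Ix (b : Fin 4 → ℤ) : Type := {e : Fin 4 → ℤ // e ∈ rts ∧ bf e e = 2 ∧ bf b e = 2}

/-- the lift of the root group `X b` -/
noncomputable def Y (φ : F →+* F) (π : L →* KK F) (b : Fin 4 → ℤ) : Subgroup L :=
  if bf b b = 4 then (⨅ e : Ix b, E φ π e.1) ⊓ (X φ b).comap π
  else ⁅(X φ b).comap π, (RGDTwE6.T F 2).comap π⁆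

theorem Y_le {b e : Fin 4 → ℤ} (hb : b ∈ rts) (he : e ∈ rts) (hel : bf e e = 2) (h : bf b e = 2) :
    Y φ π b ≤ E φ π e := by
  unfold Y
  split_ifs with hl
  · exact inf_le_left.trans (iInf_le (fun e : Ix b => E φ π e.1) ⟨e, he, hel, h⟩)
  · exact le_trans (commutator_mono (comap_mono (X_le_U2 hb h)) (comap_mono T_le_UP)) le_sup_left

section Main

variable [CharP F 2] (hF : Fintype.card F = 4) (hs : Function.Surjective π)

include hφ hqq hs in
/-- the elements of `X b`, `b` long, are commutators -/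
theorem exists_comm {b : Fin 4 → ℤ} (hb : b ∈ rts) (hbl : bf b b = 4) {w : KK F} (hw : w ∈ X φ b) :
    ∃ d, π d = w ∧ ∀ e ∈ rts, bf e e = 2 → bf b e = 2 → d ∈ E φ π e := by
  have : Fact (Nat.Prime 2) := ⟨Nat.prime_two⟩
  have : Finite CoxeterMatrix.F₄.Group := finiteW cs
  set R := rgd cs hφ hqq 2 with hR
  obtain ⟨a, ha, hal, ha', hal', h1⟩ := tab_split b hb hbl
  have hA := a2 cs ((mem_rts cs).2 ha) ((mem_rts cs).2 ha') (by rw [hal, hal']) (by rw [h1, hal]; norm_num)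
  obtain ⟨u, hu, hu1⟩ := Cfsg.Agent.KFacts.TwESix.Facts.exists_ne_one R ((mem_rts cs).2 ha)
  have hw' : w ∈ X φ (a + (b - a)) := by
    rw [add_sub_cancel]
    exact hw
  obtain ⟨v, hv, e⟩ := A2.comm_surj R hA hu hu1 hw'
  obtain ⟨uh, rfl⟩ := hs u
  obtain ⟨vh, rfl⟩ := hs v
  refine ⟨⁅uh, vh⁆, by rw [map_commutatorElement, e], ?_⟩
  intro e he hel hbe
  have h2 : bf a e + bf (b - a) e = 2 := by
    rw [← bf_add_left, add_sub_cancel, hbe]
  rcases tab_ls a ha hal e he hel with h3 | h3 | h3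
  · exact mem_E (X_le_U2 ha h3 hu) (X_le_UP ha' (by omega) hv)
  · exact mem_E' (X_le_UP ha (by omega) hu) (X_le_U2 ha' (by omega) hv)
  · exfalso
    have h4 := tab_le _ ha' e he hel
    omega

variable (hE : ∀ e ∈ rts, bf e e = 2 → E φ π e ⊓ π.ker = ⊥)

include hE in
theorem Y_ker {b : Fin 4 → ℤ} (hb : b ∈ rts) : Y φ π b ⊓ π.ker = ⊥ := by
  obtain ⟨e, he, hel, h⟩ := tab_short b hb
  rw [eq_bot_iff, ← hE e he hel]
  exact inf_le_inf_right _ (Y_le hb he hel h)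

include hφ hqq hs hF in
theorem Y_map {b : Fin 4 → ℤ} (hb : b ∈ rts) : (Y φ π b).map π = X φ b := by
  unfold Y
  split_ifs with hl
  · apply le_antisymm
    · rintro _ ⟨y, ⟨-, hy⟩, rfl⟩
      exact hy
    · intro w hw
      obtain ⟨d, hd, hd1⟩ := exists_comm hφ hqq hs hb hl hw
      refine ⟨d, Subgroup.mem_inf.2 ⟨?_, by rw [mem_comap, hd]; exact hw⟩, hd⟩
      rw [mem_iInf]
      exact fun e => hd1 e.1 e.2.1 e.2.2.1 e.2.2.2
  · rw [map_commutator, map_comap_eq_self_of_surjective hs, map_comap_eq_self_of_surjective hs]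
    have hb' := (mem_rts cs).2 hb
    apply le_antisymm
    · rw [commutator_le]
      intro x hx t ht
      have : Fact (Nat.Prime 2) := ⟨Nat.prime_two⟩
      have h1 := (rgd cs hφ hqq 2).tor b hb' t ht
      rw [commutatorElement_def, mul_assoc, mul_assoc]
      refine mul_mem hx ?_
      rw [← mul_assoc]
      show t * x⁻¹ * t⁻¹ ∈ RGDTwE6.X φ 2 b
      rw [← h1]
      exact conj_mem_cj.2 (inv_mem hx)
    · refine le_comm_T hφ hqq hF hb' ((st_iff hb).2 ?_)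
      exact (norm_rts b hb).resolve_left hl

include hφ hqq hs hE hF in
theorem Y_comm {a b : Fin 4 → ℤ} (ha : a ∈ rts) (ha0 : 0 ≤ a) (hb : b ∈ rts) (hb0 : 0 ≤ b) (hab : a ≠ b) :
    ⁅Y φ π a, Y φ π b⁆ ≤ ⨆ c : {c : Fin 4 → ℤ // bti a b c}, Y φ π c.1 := by
  obtain ⟨r, hr, hrl, h⟩ := tab_pair a ha (fun k => ha0 k) b hb (fun k => hb0 k) hab
  rw [commutator_le]
  intro x hx y hy
  have hx' : π x ∈ X φ a := by
    rw [← Y_map hφ hqq hF hs ha]
    exact mem_map_of_mem π hx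
  have hy' : π y ∈ X φ b := by
    rw [← Y_map hφ hqq hF hs hb]
    exact mem_map_of_mem π hy
  have hne : a ≠ -b := by
    intro h1
    have h2 : b = 0 := by
      apply le_antisymm _ hb0
      rw [h1] at ha0
      exact neg_nonneg.1 ha0
    exact ((mem_rts cs).2 hb).ne_zero h2
  have h1 := mem_BX hφ hqq ((mem_rts cs).2 ha) ((mem_rts cs).2 hb) hne hx' hy'
  have h2 : BX φ a b = (⨆ c : {c : Fin 4 → ℤ // bti a b c}, Y φ π c.1).map π := by
    rw [Subgroup.map_iSup]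
    unfold BX
    exact iSup_congr fun c => (Y_map hφ hqq hF hs ((mem_rts cs).1 c.2.1)).symm
  rw [h2] at h1
  obtain ⟨m, hm, e⟩ := h1
  have hmD : m ∈ E φ π r := by
    refine (iSup_le fun c => ?_ : (⨆ c : {c : Fin 4 → ℤ // bti a b c}, Y φ π c.1) ≤ E φ π r) hm
    obtain ⟨h3, i, j, hi, hj, e⟩ := c.2
    have hc := (mem_rts cs).1 h3
    refine Y_le hc hr hrl ?_
    have h4 : bf c.1 r = i * bf a r + j * bf b r := by
      rw [e, ← natCast_zsmul, ← natCast_zsmul, bf_add_left, bf_smul_left, bf_smul_left]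
    have h5 := tab_le _ hc r hr hrl
    have hi' : (1 : ℤ) ≤ i := by exact_mod_cast hi
    have hj' : (1 : ℤ) ≤ j := by exact_mod_cast hj
    refine le_antisymm h5 ?_
    rw [h4]
    rcases h with ⟨h5, h6⟩ | ⟨h5, h6⟩ | ⟨h5, h6⟩
    · rw [h5]
      have := mul_nonneg (by omega : (0 : ℤ) ≤ i) h6
      omega
    · rw [h5]
      have := mul_nonneg (by omega : (0 : ℤ) ≤ j) h6
      omega
    · rw [h5, h6]
      omega
  have hxD : ⁅x, y⁆ ∈ E φ π r := by
    rcases h with ⟨h5, h6⟩ | ⟨h5, h6⟩ | ⟨h5, h6⟩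
    · exact mem_E' (X_le_UP ha h6 hx') (X_le_U2 hb h5 hy')
    · exact mem_E (X_le_U2 ha h5 hx') (X_le_UP hb h6 hy')
    · exact mem_E1 (X_le_U1 ha (by omega) hx') (X_le_U1 hb (by omega) hy')
  have h3 : ⁅x, y⁆ * m⁻¹ ∈ E φ π r ⊓ π.ker := Subgroup.mem_inf.2 ⟨mul_mem hxD (inv_mem hmD), by
    rw [MonoidHom.mem_ker, map_mul, map_inv, e, map_commutatorElement, mul_inv_cancel]⟩
  rw [hE r hr hrl, mem_bot, mul_inv_eq_one] at h3
  rw [h3]
  exact hm

end Main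

include hφ hqq in
/-- **The core**: if `E b0` meets the kernel trivially then the kernel has odd order. -/
theorem core [Finite L] [CharP F 2] (hF : Fintype.card F = 4) (hs : Function.Surjective π) (hc : π.ker ≤ center L)
    (hL : commutator L = ⊤) (h0 : E φ π b0 ⊓ π.ker = ⊥) {a : L} (ha : π a = 1) :
    ∃ n : ℕ, ¬ 2 ∣ n ∧ a ^ n = 1 := by
  have : Fact (Nat.Prime 2) := ⟨Nat.prime_two⟩
  have : Finite CoxeterMatrix.F₄.Group := finiteW cs
  have : Finite (KK F) := inferInstance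
  set R := rgd cs hφ hqq 2 with hR
  have hE : ∀ e ∈ rts, bf e e = 2 → E φ π e ⊓ π.ker = ⊥ := fun e he hl => E_conj hφ hqq hs hc h0 he hl
  have h2 := Cfsg.Agent.H164.F4.Coll.coll hF hφ (Y φ π)
    (fun b hb _ => ⟨Y_map hφ hqq hF hs ((mem_rts cs).1 hb), Y_ker hE ((mem_rts cs).1 hb)⟩)
    (fun a b ha ha0 hb hb0 hab => Y_comm hφ hqq hF hs hE ((mem_rts cs).1 ha) ha0 ((mem_rts cs).1 hb) hb0 hab)
  set Z : Subgroup L := ⨆ b : {b : Fin 4 → ℤ // IsRoot cs isCartan b ∧ 0 ≤ b}, Y φ π b.1 with hZ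
  have h3 : Z.map π = RGD.Sup (X φ) (RGD.Pos cs isCartan) := by
    rw [hZ, Subgroup.map_iSup]
    exact iSup_congr fun b => Y_map hφ hqq hF hs ((mem_rts cs).1 b.2.1)
  have hG : GG cs isCartan (RGDTwE6.T F 2) (X φ) = ⊤ := by
    rw [eq_top_iff, ← G1_eq_top cs hφ hqq]
    exact le_sup_right
  obtain ⟨S, hS⟩ := Cfsg.Agent.KFacts.RgdAutFacts.exists_sylow R hG
  have h4 := Cfsg.Agent.Nodes.ExactLift.Lft.pow_index hs hc hL (V := Z) (fun a ha h => by
    have h5 : a ∈ Z ⊓ π.ker := ⟨ha, h⟩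
    rw [h2] at h5
    exact mem_bot.1 h5) ha
  refine ⟨_, ?_, h4⟩
  rw [h3, ← hS]
  exact S.not_dvd_index

end L

/-- **`BF` from `DF`.** -/
theorem bf_of {F : Type u} [Field F] [Fintype F] (hF : Fintype.card F = 4) {φ : F →+* F} (hφ : ∀ t, φ t = t ^ 2)
    {L : Type v} [Group L] [Finite L] {π : L →* KK F} (hπ : Cfsg.Agent.H51.Mult.PCE π) (hk : Nat.card π.ker = 4)
    {D : Subgroup L} (hD : DF φ π D) : BF φ π D := by
  have : CharP F 2 := Cfsg.Agent.H164.F4.OutV.charTwo hF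
  have hqq : ∀ t : F, (t ^ 2) ^ 2 = t := fun t => by
    rw [← pow_mul, show 2 * 2 = Fintype.card F by rw [hF]]
    exact FiniteField.pow_card t
  have hs := hπ.surj
  have hc := hπ.cen
  intro M hM hMne
  by_contra hcon
  push Not at hcon
  have hMc : M ≤ center L := hM.trans hc
  have hMn : M.Normal := ⟨fun n hn g => by
    rw [mem_center_iff.1 (hMc hn) g, mul_inv_cancel_right]
    exact hn⟩
  have hMk : ∀ x ∈ M, π x = 1 := fun x hx => hM hx
  let π' : L ⧸ M →* KK F := QuotientGroup.lift M π hMk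
  have hπ' : ∀ x : L, π' (x : L ⧸ M) = π x := fun x => rfl
  have hs' : Function.Surjective π' := fun y => by
    obtain ⟨x, rfl⟩ := hs y
    exact ⟨(x : L ⧸ M), rfl⟩
  have hmk : Function.Surjective (QuotientGroup.mk' M) := QuotientGroup.mk'_surjective M
  have hc' : π'.ker ≤ center (L ⧸ M) := by
    intro x hx
    obtain ⟨x, rfl⟩ := hmk x
    rw [mem_center_iff]
    intro y
    obtain ⟨y, rfl⟩ := hmk y
    rw [← map_mul, ← map_mul, mem_center_iff.1 (hc (show π x = 1 from hx)) y]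
  have hL' : commutator (L ⧸ M) = ⊤ := by
    have h1 := congrArg (Subgroup.map (QuotientGroup.mk' M)) hπ.perf
    rw [commutator_def, map_commutator, Subgroup.map_top_of_surjective _ hmk] at h1
    rw [commutator_def]
    exact h1
  have hcomap : ∀ A : Subgroup (KK F), A.comap π' = (A.comap π).map (QuotientGroup.mk' M) := by
    intro A
    have h1 : A.comap π = (A.comap π').comap (QuotientGroup.mk' M) := rfl
    rw [h1, map_comap_eq_self_of_surjective hmk]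
  -- `E b0 ≤ M D`
  have hE : E φ π b0 ≤ M ⊔ D := by
    unfold E
    refine sup_le ?_ ?_ <;> rw [commutator_le]
    · intro x hx y hy
      have hx' : π x ∈ D.map π := by rw [hD.map]; exact U2_b0_le hx
      have hy' : π y ∈ P φ j4 := UP_b0_le hy
      obtain ⟨d, hd, e⟩ := hx'
      have hz : ∀ g, (x * d⁻¹) * g = g * (x * d⁻¹) := fun g =>
        (mem_center_iff.1 (hc (show x * d⁻¹ ∈ π.ker by
          rw [MonoidHom.mem_ker, map_mul, map_inv, e, mul_inv_cancel])) g).symm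
      have e1 : ⁅x, y⁆ = d * (y * d⁻¹ * y⁻¹) := by
        rw [commutatorElement_def]
        calc x * y * x⁻¹ * y⁻¹ = (x * d⁻¹) * (d * y) * x⁻¹ * y⁻¹ := by group
          _ = (d * y) * (x * d⁻¹) * x⁻¹ * y⁻¹ := by rw [hz]
          _ = (d * y) * ((x * d⁻¹) * x⁻¹) * y⁻¹ := by group
          _ = (d * y) * (x⁻¹ * (x * d⁻¹)) * y⁻¹ := by rw [hz]
          _ = _ := by group
      rw [e1]
      exact (le_sup_right : D ≤ M ⊔ D) (mul_mem hd (hD.norm y hy' _ (inv_mem hd)))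
    · intro x hx y hy
      rw [commutatorElement_def]
      exact hcon x (U1_b0_le hx) y (U1_b0_le hy)
  have h0 : E φ π' b0 ⊓ π'.ker = ⊥ := by
    have h1 : E φ π' b0 = (E φ π b0).map (QuotientGroup.mk' M) := by
      unfold E
      rw [hcomap, hcomap, hcomap, ← map_commutator, ← map_commutator, Subgroup.map_sup]
    rw [h1, eq_bot_iff]
    rintro _ ⟨⟨x, hx, rfl⟩, hx'⟩
    rw [mem_bot]
    refine (QuotientGroup.eq_one_iff x).2 ?_
    obtain ⟨m, hm, d, hd, rfl⟩ := (mem_sup_of_normal_left (s := M) (t := D)).1 (hE hx)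
    have h2 : π (m * d) = 1 := hx'
    rw [map_mul, hMk m hm, one_mul] at h2
    rw [hD.disj d hd h2, mul_one]
    exact hm
  -- an element of the kernel outside `M`
  obtain ⟨z, hz, hzM⟩ : ∃ z ∈ π.ker, z ∉ M := by
    by_contra h
    push Not at h
    exact hMne (le_antisymm hM h)
  obtain ⟨n, hn, h2⟩ := core hφ hqq hF hs' hc' hL' h0 (a := (z : L ⧸ M)) hz
  apply hzM
  refine (QuotientGroup.eq_one_iff z).1 ?_
  have h4 : z ^ 4 = 1 := by
    have h5 : (⟨z, hz⟩ : π.ker) ^ 4 = 1 := by rw [← hk]; exact pow_card_eq_one'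
    exact congrArg Subtype.val h5
  have h5 : orderOf (z : L ⧸ M) ∣ 1 := by
    have hcop : Nat.Coprime n 4 := by
      have h6 : Nat.Coprime n 2 := ((Nat.Prime.coprime_iff_not_dvd Nat.prime_two).2 hn).symm
      exact Nat.Coprime.pow_right 2 h6
    rw [← hcop]
    refine Nat.dvd_gcd (orderOf_dvd_of_pow_eq_one h2) (orderOf_dvd_of_pow_eq_one ?_)
    exact congrArg (QuotientGroup.mk' M) h4
  exact orderOf_eq_one_iff.1 (Nat.dvd_one.1 h5)

end Cfsg.Agent.H326.QF.BFOf
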