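import Cfsg.Agent.H326.QS.VP

/-!
# S2491, row F4: generation of `V_1` of `²E₆` (piece TSTAR)

`R` root group datum of type `F₄` in characteristic 2 with the facts `Dat`; `V_1 = Sup {x 0 ≥ 1}`.

* `le_of_low` : `V_1 ≤ M` if `M` contains `X α₀`, `X θ` and the commutators of `X c` (`c ≥ 0`, `c 0 = 0`) with the root groups
  of `V_1`;
* `le_of_high` : `V_1 ≤ M` if `M` contains `X (θ - α₀)`, `X θ` and is closed under commutators with `X c`, `c 0 = 0`;
* `comm_mem_rho` : `[V_1, V_1] ≤ X θ`.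
-/

set_option autoImplicit false
set_option linter.unusedSectionVars false

namespace Cfsg.Agent.H326.QF.GenV

open CoxeterSystem Cfsg.Agent.ChevalleyStructure.CoxeterGeom Cfsg.Agent.Tits.Roots Cfsg.Agent.Tits.Core
  Cfsg.Agent.Tits.RootComb Cfsg.Agent.Nodes.Reps Cfsg.Agent.Nodes.BNOf Cfsg.Agent.Nodes.Coroot
  Cfsg.Agent.Nodes.StabComb Cfsg.Agent.Nodes.Bruhat Cfsg.Agent.Nodes.OppDec Cfsg.Agent.Nodes.LeviDec
  Cfsg.Agent.KFacts.RgdSL Cfsg.Agent.KFacts.RgdTI Cfsg.Agent.Nodes.RGDTwE6 Cfsg.Agent.KFacts.TwESix.Comb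
  Cfsg.Agent.KFacts.TwESix.Btw Cfsg.Agent.KFacts.TwESix.Facts Cfsg.Agent.H326.QS.VP
open scoped commutatorElement

variable {W Y : Type*} [Group W] [Group Y] {cs : CoxeterSystem CoxeterMatrix.F₄ W} {T : Subgroup Y}
  {n : Fin 4 → Y} {X : (Fin 4 → ℤ) → Subgroup Y} {R : RGD cs isCartan 2 T n X} (D : Dat R)

include D

theorem le_of_a2 {x y : Fin 4 → ℤ} (hx : x ∈ rts) (hy : y ∈ rts) (hl : bf x x = bf y y)
    (hxy : 2 * bf x y = - bf x x) {u : Y} (hu : u ∈ X x) (hu1 : u ≠ 1) {M : Subgroup Y}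
    (h : ∀ v ∈ X y, ⁅u, v⁆ ∈ M) : X (x + y) ≤ M := by
  have : Finite W := finiteW cs
  intro w hw
  obtain ⟨v, hv, e⟩ := (a2 cs ((mem_rts cs).2 hx) ((mem_rts cs).2 hy) hl hxy).comm_surj R hu hu1 hw
  rw [← e]
  exact h v hv

theorem le_of_135 {x y : Fin 4 → ℤ} (hx : x ∈ rts) (hy : y ∈ rts) (hxx : bf x x = 4) (hyy : bf y y = 2)
    (hxy : bf x y = -2) (hs : x + y ∈ rts) (hl : x + (2 : ℤ) • y ∈ rts) {u : Y} (hu : u ∈ X x) (hu1 : u ≠ 1)
    {M : Subgroup Y} (hM : X (x + (2 : ℤ) • y) ≤ M) (h : ∀ v ∈ X y, ⁅u, v⁆ ∈ M) : X (x + y) ≤ M := by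
  intro w hw
  obtain ⟨v, hv, z, hz, e⟩ := surj_135 D ((mem_rts cs).2 hx) ((mem_rts cs).2 hy) hxx hyy hxy ((mem_rts cs).2 hs)
    ((mem_rts cs).2 hl) hu hu1 hw
  have h1 : w = ⁅u, v⁆ * z⁻¹ := by rw [e]; group
  rw [h1]
  exact mul_mem (h v hv) (inv_mem (hM hz))

theorem low_roots : ∀ b ∈ rts, 1 ≤ b 0 → b = rho ∨ b = sr 0 ∨ b = ![1, 1, 1, 0] ∨
    ∃ c ∈ rts, c 0 = 0 ∧ (∀ k, 0 ≤ c k) ∧ (b - c) ∈ rts ∧ 1 ≤ (b - c) 0 ∧ bf c c = bf (b - c) (b - c) ∧
      2 * bf c (b - c) = - bf c c := by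
  clear D
  decide +kernel

/-- **Generation from below.** -/
theorem le_of_low {M : Subgroup Y} (h0 : X (sr 0) ≤ M) (hr : X rho ≤ M)
    (h : ∀ c ∈ rts, c 0 = 0 → (∀ k, 0 ≤ c k) → ∀ d ∈ rts, 1 ≤ d 0 → ∀ u ∈ X c, ∀ v ∈ X d, ⁅u, v⁆ ∈ M) :
    RGD.Sup X (Q (fun x => 1 ≤ x 0)) ≤ M := by
  have hA : ∀ b c : Fin 4 → ℤ, b ∈ rts → c ∈ rts → c 0 = 0 → (∀ k, 0 ≤ c k) → (b - c) ∈ rts → 1 ≤ (b - c) 0 →
      bf c c = bf (b - c) (b - c) → 2 * bf c (b - c) = - bf c c → X b ≤ M := by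
    intro b c hb hc hc0 hcp hbc hbc0 h1 h2
    obtain ⟨u, hu, hu1⟩ := exists_ne_one R ((mem_rts cs).2 hc)
    have := le_of_a2 D hc hbc h1 h2 hu hu1 (M := M) (fun v hv => h c hc hc0 hcp _ hbc hbc0 u hu v hv)
    rwa [add_sub_cancel] at this
  refine RGD.Sup_le fun b hb => ?_
  rcases low_roots D b hb.1 hb.2 with rfl | rfl | rfl | ⟨c, hc, hc0, hcp, hbc, hbc0, h1, h2⟩
  · exact hr
  · exact h0
  · obtain ⟨u, hu, hu1⟩ := exists_ne_one R ((mem_rts cs).2 (show (![1, 1, 0, 0] : Fin 4 → ℤ) ∈ rts by decide +kernel))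
    have h1 : X (![1, 1, 0, 0] + (2 : ℤ) • ![0, 0, 1, 0]) ≤ M := by
      rw [show (![1, 1, 0, 0] + (2 : ℤ) • ![0, 0, 1, 0] : Fin 4 → ℤ) = ![1, 1, 2, 0] by decide +kernel]
      exact hA ![1, 1, 2, 0] ![0, 1, 2, 0] (by decide +kernel) (by decide +kernel) (by decide +kernel)
        (by decide +kernel) (by decide +kernel) (by decide +kernel) (by decide +kernel) (by decide +kernel)
    have h2 := le_of_135 D (x := ![1, 1, 0, 0]) (y := ![0, 0, 1, 0]) (by decide +kernel) (by decide +kernel)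
      (by decide +kernel) (by decide +kernel) (by decide +kernel) (by decide +kernel) (by decide +kernel) hu hu1 h1
      (fun v hv => by
        have h3 := h ![0, 0, 1, 0] (by decide +kernel) (by decide +kernel) (by decide +kernel) ![1, 1, 0, 0]
          (by decide +kernel) (by decide +kernel) v hv u hu
        rw [← commutatorElement_inv]
        exact inv_mem h3)
    rwa [show (![1, 1, 0, 0] + ![0, 0, 1, 0] : Fin 4 → ℤ) = ![1, 1, 1, 0] by decide +kernel] at h2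
  · exact hA b c hb.1 hc hc0 hcp hbc hbc0 h1 h2

theorem high_roots : ∀ b ∈ rts, 1 ≤ b 0 → b = rho ∨ b = ![1, 3, 4, 2] ∨ b = ![1, 2, 4, 2] ∨ b = ![1, 2, 2, 2] ∨
    b = ![1, 2, 2, 0] ∨ b = ![1, 1, 2, 2] ∨ b = ![1, 1, 2, 0] ∨ b = ![1, 1, 0, 0] ∨ b = ![1, 0, 0, 0] ∨
    b = ![1, 1, 1, 0] ∨ b = ![1, 1, 1, 1] ∨ b = ![1, 1, 2, 1] ∨ b = ![1, 2, 2, 1] ∨ b = ![1, 2, 3, 1] ∨
    b = ![1, 2, 3, 2] := by
  clear D
  decide +kernel

/-- **Generation from above.** -/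
theorem le_of_high {M : Subgroup Y} (h1 : X ![1, 3, 4, 2] ≤ M) (hr : X rho ≤ M)
    (h : ∀ c ∈ rts, c 0 = 0 → ∀ d ∈ rts, 1 ≤ d 0 → X d ≤ M → ∀ u ∈ X d, ∀ v ∈ X c, ⁅u, v⁆ ∈ M) :
    RGD.Sup X (Q (fun x => 1 ≤ x 0)) ≤ M := by
  have st : ∀ d c b : Fin 4 → ℤ, X d ≤ M → d ∈ rts → c ∈ rts → d + c = b → c 0 = 0 → 1 ≤ d 0 → bf d d = bf c c →
      2 * bf d c = - bf d d → X b ≤ M := by
    intro d c b hM hd hc hb hc0 hd0 e1 e2
    obtain ⟨u, hu, hu1⟩ := exists_ne_one R ((mem_rts cs).2 hd)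
    rw [← hb]
    exact le_of_a2 D hd hc e1 e2 hu hu1 (fun v hv => h c hc hc0 d hd hd0 hM u hu v hv)
  have a1 : X ![1, 2, 4, 2] ≤ M := st ![1, 3, 4, 2] ![0, -1, 0, 0] _ h1 (by decide +kernel) (by decide +kernel)
    (by decide +kernel) (by decide +kernel) (by decide +kernel) (by decide +kernel) (by decide +kernel)
  have a2 : X ![1, 2, 2, 2] ≤ M := st ![1, 3, 4, 2] ![0, -1, -2, 0] _ h1 (by decide +kernel) (by decide +kernel)
    (by decide +kernel) (by decide +kernel) (by decide +kernel) (by decide +kernel) (by decide +kernel)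
  have a3 : X ![1, 2, 2, 0] ≤ M := st ![1, 3, 4, 2] ![0, -1, -2, -2] _ h1 (by decide +kernel) (by decide +kernel)
    (by decide +kernel) (by decide +kernel) (by decide +kernel) (by decide +kernel) (by decide +kernel)
  have a4 : X ![1, 1, 2, 2] ≤ M := st ![1, 2, 4, 2] ![0, -1, -2, 0] _ a1 (by decide +kernel) (by decide +kernel)
    (by decide +kernel) (by decide +kernel) (by decide +kernel) (by decide +kernel) (by decide +kernel)
  have a5 : X ![1, 1, 2, 0] ≤ M := st ![1, 2, 4, 2] ![0, -1, -2, -2] _ a1 (by decide +kernel) (by decide +kernel)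
    (by decide +kernel) (by decide +kernel) (by decide +kernel) (by decide +kernel) (by decide +kernel)
  have a6 : X ![1, 1, 0, 0] ≤ M := st ![1, 2, 2, 2] ![0, -1, -2, -2] _ a2 (by decide +kernel) (by decide +kernel)
    (by decide +kernel) (by decide +kernel) (by decide +kernel) (by decide +kernel) (by decide +kernel)
  have a7 : X ![1, 0, 0, 0] ≤ M := st ![1, 1, 0, 0] ![0, -1, 0, 0] _ a6 (by decide +kernel) (by decide +kernel)
    (by decide +kernel) (by decide +kernel) (by decide +kernel) (by decide +kernel) (by decide +kernel)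
  have b1 : X ![1, 1, 1, 0] ≤ M := by
    obtain ⟨u, hu, hu1⟩ := exists_ne_one R ((mem_rts cs).2 (show (![1, 1, 0, 0] : Fin 4 → ℤ) ∈ rts by decide +kernel))
    have h2 := le_of_135 D (x := ![1, 1, 0, 0]) (y := ![0, 0, 1, 0]) (by decide +kernel) (by decide +kernel)
      (by decide +kernel) (by decide +kernel) (by decide +kernel) (by decide +kernel) (by decide +kernel) hu hu1
      (M := M)
      (by rwa [show (![1, 1, 0, 0] + (2 : ℤ) • ![0, 0, 1, 0] : Fin 4 → ℤ) = ![1, 1, 2, 0] by decide +kernel])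
      (fun v hv => h ![0, 0, 1, 0] (by decide +kernel) (by decide +kernel) ![1, 1, 0, 0]
          (by decide +kernel) (by decide +kernel) a6 u hu v hv)
    rwa [show (![1, 1, 0, 0] + ![0, 0, 1, 0] : Fin 4 → ℤ) = ![1, 1, 1, 0] by decide +kernel] at h2
  have b2 : X ![1, 1, 1, 1] ≤ M := st ![1, 1, 1, 0] ![0, 0, 0, 1] _ b1 (by decide +kernel) (by decide +kernel)
    (by decide +kernel) (by decide +kernel) (by decide +kernel) (by decide +kernel) (by decide +kernel)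
  have b3 : X ![1, 1, 2, 1] ≤ M := st ![1, 1, 1, 1] ![0, 0, 1, 0] _ b2 (by decide +kernel) (by decide +kernel)
    (by decide +kernel) (by decide +kernel) (by decide +kernel) (by decide +kernel) (by decide +kernel)
  have b4 : X ![1, 2, 2, 1] ≤ M := st ![1, 1, 1, 0] ![0, 1, 1, 1] _ b1 (by decide +kernel) (by decide +kernel)
    (by decide +kernel) (by decide +kernel) (by decide +kernel) (by decide +kernel) (by decide +kernel)
  have b5 : X ![1, 2, 3, 1] ≤ M := st ![1, 1, 1, 0] ![0, 1, 2, 1] _ b1 (by decide +kernel) (by decide +kernel)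
    (by decide +kernel) (by decide +kernel) (by decide +kernel) (by decide +kernel) (by decide +kernel)
  have b6 : X ![1, 2, 3, 2] ≤ M := st ![1, 1, 1, 1] ![0, 1, 2, 1] _ b2 (by decide +kernel) (by decide +kernel)
    (by decide +kernel) (by decide +kernel) (by decide +kernel) (by decide +kernel) (by decide +kernel)
  refine RGD.Sup_le fun b hb => ?_
  rcases high_roots D b hb.1 hb.2 with rfl | rfl | rfl | rfl | rfl | rfl | rfl | rfl | rfl | rfl | rfl | rfl | rfl |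
    rfl | rfl <;> assumption

/-! ### `[V_1, V_1] ≤ X θ` -/

theorem ge_two : ∀ x ∈ rts, 1 ≤ x 0 → ∀ y ∈ rts, 1 ≤ y 0 → ∀ z ∈ rts, bt x y z → z = rho ∨
    (bf x x = 4 ∧ bf y y = 4 ∧ 0 ≤ bf x y) := by
  clear D
  decide +kernel

theorem comm_roots {x y : Fin 4 → ℤ} (hx : x ∈ rts) (hx0 : 1 ≤ x 0) (hy : y ∈ rts) (hy0 : 1 ≤ y 0) {u v : Y}
    (hu : u ∈ X x) (hv : v ∈ X y) : ⁅u, v⁆ ∈ X rho := by
  have : Finite W := finiteW cs
  by_cases hxy : x = y
  · subst hxy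
    rw [commutatorElement_eq_one_iff_mul_comm.2 (abel R ((mem_rts cs).2 hx) hu hv)]
    exact one_mem _
  by_cases hl : bf x x = 4 ∧ bf y y = 4 ∧ 0 ≤ bf x y
  · rw [commutatorElement_eq_one_iff_mul_comm.2
      (comm_long D ((mem_rts cs).2 hx) ((mem_rts cs).2 hy) hl.2.1 hl.2.2 hu hv)]
    exact one_mem _
  have hne : x ≠ -y := by
    intro h
    have := congrFun h 0
    rw [Pi.neg_apply] at this
    omega
  refine btw_le_of (fun z hz => ?_) (R.comm x y ((mem_rts cs).2 hx) ((mem_rts cs).2 hy) hxy hne u hu v hv)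
  obtain ⟨h1, h2⟩ := btwn_spec cs ((mem_rts cs).2 hx) ((mem_rts cs).2 hy) hxy hne hz
  exact (ge_two D x hx hx0 y hy hy0 z h1 h2).resolve_right hl

/-- `X θ` is central in the group generated by the `X x`, `x 0 ≥ 0` -/
theorem rho_comm {x : Fin 4 → ℤ} (hx : x ∈ rts) (hx0 : 0 ≤ x 0) {u v : Y} (hu : u ∈ X x) (hv : v ∈ X rho) :
    u * v = v * u :=
  comm_long D ((mem_rts cs).2 hx) (rho_root cs) rho_long (by rw [bf_rho]; omega) hu hv

theorem V_comm_rho {u v : Y} (hu : u ∈ RGD.Sup X (Q (fun x => 1 ≤ x 0))) (hv : v ∈ X rho) : u * v = v * u := by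
  have h1 : RGD.Sup X (Q (fun x => 1 ≤ x 0)) ≤ Subgroup.centralizer ({v} : Set Y) := by
    refine RGD.Sup_le fun x hx c hc => ?_
    rw [Subgroup.mem_centralizer_singleton_iff]
    exact rho_comm D hx.1 (by have := hx.2; omega) hc hv
  exact Subgroup.mem_centralizer_singleton_iff.1 (h1 hu)

/-- **`[V_1, V_1] ≤ X θ`.** -/
theorem comm_mem_rho {u v : Y} (hu : u ∈ RGD.Sup X (Q (fun x => 1 ≤ x 0)))
    (hv : v ∈ RGD.Sup X (Q (fun x => 1 ≤ x 0))) : ⁅u, v⁆ ∈ X rho := by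
  set V := RGD.Sup X (Q (fun x => 1 ≤ x 0)) with hV
  -- the second variable
  have key : ∀ u : Y, u ∈ V → (∀ y ∈ rts, 1 ≤ y 0 → ∀ w ∈ X y, ⁅u, w⁆ ∈ X rho) → ∀ v ∈ V, ⁅u, v⁆ ∈ X rho := by
    intro u hu h
    let S : Subgroup Y :=
      { carrier := {w | w ∈ V ∧ ⁅u, w⁆ ∈ X rho}
        one_mem' := ⟨one_mem _, by rw [commutatorElement_one_right]; exact one_mem _⟩
        mul_mem' := by
          rintro a b ⟨ha, ha'⟩ ⟨hb, hb'⟩
          refine ⟨mul_mem ha hb, ?_⟩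
          have e : ⁅u, a * b⁆ = ⁅u, a⁆ * (a * ⁅u, b⁆ * a⁻¹) := by
            simp only [commutatorElement_def]; group
          rw [e, V_comm_rho D ha hb', mul_inv_cancel_right]
          exact mul_mem ha' hb'
        inv_mem' := by
          rintro a ⟨ha, ha'⟩
          refine ⟨inv_mem ha, ?_⟩
          have e : ⁅u, a⁻¹⁆ = a⁻¹ * ⁅u, a⁆⁻¹ * a := by
            simp only [commutatorElement_def]; group
          have h1 := V_comm_rho D (inv_mem ha) (inv_mem ha')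
          rw [e, h1, mul_assoc, inv_mul_cancel, mul_one]
          exact inv_mem ha' }
    have h1 : V ≤ S := RGD.Sup_le fun y hy w hw => ⟨RGD.le_Sup hy hw, h y hy.1 hy.2 w hw⟩
    exact fun v hv => (h1 hv).2
  refine key u hu (fun y hy hy0 w hw => ?_) v hv
  have hwV : w ∈ V := RGD.le_Sup (S := Q (fun x => 1 ≤ x 0)) ⟨hy, hy0⟩ hw
  rw [← commutatorElement_inv]
  refine inv_mem (key w hwV (fun x hx hx0 a ha => ?_) u hu)
  exact comm_roots D hy hy0 hx hx0 hw ha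

end Cfsg.Agent.H326.QF.GenV
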