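import Cfsg.Agent.H326.QS.VPE
import Cfsg.Agent.H231.QF.Defs

/-!
# S2491, row F4: K3 `out_of_V1` (`V_1 ∖ 1` can be moved out of `V_1`)
-/

set_option autoImplicit false

namespace Cfsg.Agent.H326.QF

open CoxeterSystem Cfsg.Agent.ChevalleyStructure.CoxeterGeom Cfsg.Agent.Tits.Roots Cfsg.Agent.Tits.Core
  Cfsg.Agent.Nodes Cfsg.Agent.Nodes.Reps Cfsg.Agent.Nodes.BNOf Cfsg.Agent.Nodes.RGDLib Cfsg.Agent.Nodes.Bruhat
  Cfsg.Agent.Nodes.OppDec Cfsg.Agent.Nodes.LeviDec Cfsg.Agent.Nodes.StabComb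
open Cfsg.Lie Subgroup
open Cfsg.Agent.H231.QF

universe u

variable {F : Type u} [Field F] [Fintype F] (hF : Fintype.card F = 4) {φ : F →+* F} (hφ : ∀ t, φ t = t ^ 2)

include hF in
theorem charP_two : CharP F 2 := by
  obtain ⟨p, hp⟩ := CharP.exists F
  have : Fact p.Prime := ⟨CharP.char_is_prime F p⟩
  obtain ⟨n, hn, h1⟩ := FiniteField.card F p
  have h2 : p ∣ 2 ^ 2 := by
    have h3 : p ∣ p ^ (n : ℕ) := dvd_pow_self p n.2.ne'
    rw [← h1, hF] at h3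
    exact h3
  have h4 : p = 2 := (Nat.prime_dvd_prime_iff_eq hn Nat.prime_two).1 (hn.dvd_of_dvd_pow h2)
  rwa [h4] at hp

include hF in
theorem frob_frob (t : F) : (t ^ 2) ^ 2 = t := by
  have := FiniteField.pow_card t
  rw [hF] at this
  rw [← pow_mul]
  exact this

theorem j1_eq : (Cfsg.Agent.H326.QS.VP.J : Set (Fin 4)) = j1 := by
  ext k
  have h1 := @Cfsg.Agent.H326.QS.VP.not_mem_J k
  show k ∈ Cfsg.Agent.H326.QS.VP.J ↔ k ≠ 0
  exact ⟨fun a b => h1.2 b a, fun a => not_not.1 fun b => a (h1.1 b)⟩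

include hF hφ in
/-- **K3** : `V_1 ∖ 1` can be moved out of `V_1`. -/
theorem out_of_V1 (g : KK F) (hg : g ∈ V φ j1) (h1 : g ≠ 1) : Cfsg.Agent.H231.QF.Out φ j1 g := by
  have := charP_two hF
  rw [← j1_eq] at hg
  obtain ⟨y, hy⟩ := Cfsg.Agent.H326.QS.VPE.vpE Cfsg.Agent.H231.QF.cs hφ (frob_frob hF) hg h1
  rw [j1_eq] at hy
  exact ⟨y, hy⟩

end Cfsg.Agent.H326.QF
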