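import Cfsg.Agent.H326.QF.GenV
import Cfsg.Agent.H326.QF.OutV1
import Cfsg.Agent.KFacts.TwESix.Dat

/-!
# S2491, row F4: TSTAR

In every perfect central extension `π : L → ²E₆(2)` there is `t` over the root group `X θ` with `t² = 1`, centralised by the
preimage of `P_1`, such that the commutators of the preimage of `V_1` are `1` or `t`. Input: `P_1` is perfect.
-/

set_option autoImplicit false

namespace Cfsg.Agent.H326.QF

open CoxeterSystem Cfsg.Agent.ChevalleyStructure.CoxeterGeom Cfsg.Agent.Tits.Roots Cfsg.Agent.Tits.Core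
  Cfsg.Agent.Nodes Cfsg.Agent.Nodes.Reps Cfsg.Agent.Nodes.BNOf Cfsg.Agent.Nodes.RGDLib Cfsg.Agent.Nodes.Bruhat
  Cfsg.Agent.Nodes.OppDec Cfsg.Agent.Nodes.LeviDec Cfsg.Agent.Nodes.StabComb
open Cfsg.Lie Subgroup
open Cfsg.Agent.H51.Mult (PCE)
open Cfsg.Agent.H231.QF
open Cfsg.Agent.KFacts.TwESix.Comb Cfsg.Agent.KFacts.TwESix.Facts Cfsg.Agent.H326.QS.VP
open scoped commutatorElement

universe u v

/-! ### Centralizers in the preimage of a perfect subgroup -/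

section cent

variable {K : Type u} [Group K] {L : Type v} [Group L] {π : L →* K}

/-- elements over the centralizer of a perfect subgroup are centralised by its preimage -/
theorem cent_of_perf (hπ : PCE π) {H : Subgroup K} (hH : ⁅H, H⁆ = H) {x : L} (hx : ∀ h ∈ H, h * π x = π x * h) {g : L}
    (hg : π g ∈ H) : g * x = x * g := by
  have hz : ∀ a : L, π a ∈ H → ∃ z, π z = 1 ∧ a * x = z * (x * a) := by
    intro a ha
    refine ⟨a * x * (x * a)⁻¹, ?_, by group⟩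
    rw [map_mul, map_inv, map_mul, map_mul, hx _ ha, mul_inv_cancel]
  have h1 : ⁅H.comap π, H.comap π⁆ ≤ centralizer ({x} : Set L) := by
    rw [commutator_le]
    intro a ha b hb
    obtain ⟨z, hz1, ea⟩ := hz a ha
    obtain ⟨w, hw1, eb⟩ := hz b hb
    have cz : ∀ g, z * g = g * z := hπ.comm hz1
    have cw : ∀ g, w * g = g * w := hπ.comm hw1
    rw [mem_centralizer_singleton_iff, commutatorElement_def]
    have ea' : a * x * a⁻¹ = z * x := by rw [ea]; group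
    have eb' : b * x * b⁻¹ = w * x := by rw [eb]; group
    have ea2 : a⁻¹ * x * a = z⁻¹ * x := by
      have h1 : x = z * (a⁻¹ * x * a) := by
        calc x = a⁻¹ * (a * x * a⁻¹) * a := by group
          _ = a⁻¹ * (z * x) * a := by rw [ea']
          _ = (a⁻¹ * z) * x * a := by group
          _ = (z * a⁻¹) * x * a := by rw [cz]
          _ = _ := by group
      rw [eq_inv_mul_iff_mul_eq]; exact h1.symm
    have eb2 : b⁻¹ * x * b = w⁻¹ * x := by
      have h1 : x = w * (b⁻¹ * x * b) := by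
        calc x = b⁻¹ * (b * x * b⁻¹) * b := by group
          _ = b⁻¹ * (w * x) * b := by rw [eb']
          _ = (b⁻¹ * w) * x * b := by group
          _ = (w * b⁻¹) * x * b := by rw [cw]
          _ = _ := by group
      rw [eq_inv_mul_iff_mul_eq]; exact h1.symm
    have czi : ∀ g, z⁻¹ * g = g * z⁻¹ := fun g => by
      rw [inv_mul_eq_iff_eq_mul, ← mul_assoc, cz, mul_assoc, mul_inv_cancel, mul_one]
    have cwi : ∀ g, w⁻¹ * g = g * w⁻¹ := fun g => by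
      rw [inv_mul_eq_iff_eq_mul, ← mul_assoc, cw, mul_assoc, mul_inv_cancel, mul_one]
    have h2 : (a * b * a⁻¹ * b⁻¹) * x * (a * b * a⁻¹ * b⁻¹)⁻¹ = x := by
      calc (a * b * a⁻¹ * b⁻¹) * x * (a * b * a⁻¹ * b⁻¹)⁻¹
          = a * (b * (a⁻¹ * (b⁻¹ * x * b) * a) * b⁻¹) * a⁻¹ := by group
        _ = a * (b * (a⁻¹ * (w⁻¹ * x) * a) * b⁻¹) * a⁻¹ := by rw [eb2]
        _ = a * (b * ((a⁻¹ * w⁻¹) * x * a) * b⁻¹) * a⁻¹ := by group
        _ = a * (b * ((w⁻¹ * a⁻¹) * x * a) * b⁻¹) * a⁻¹ := by rw [cwi]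
        _ = a * (b * (w⁻¹ * (a⁻¹ * x * a)) * b⁻¹) * a⁻¹ := by group
        _ = a * (b * (w⁻¹ * (z⁻¹ * x)) * b⁻¹) * a⁻¹ := by rw [ea2]
        _ = a * ((b * w⁻¹) * (z⁻¹ * x) * b⁻¹) * a⁻¹ := by group
        _ = a * ((w⁻¹ * b) * (z⁻¹ * x) * b⁻¹) * a⁻¹ := by rw [cwi]
        _ = a * (w⁻¹ * (b * z⁻¹) * x * b⁻¹) * a⁻¹ := by group
        _ = a * (w⁻¹ * (z⁻¹ * b) * x * b⁻¹) * a⁻¹ := by rw [czi b]
        _ = a * (w⁻¹ * z⁻¹ * (b * x * b⁻¹)) * a⁻¹ := by group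
        _ = a * (w⁻¹ * z⁻¹ * (w * x)) * a⁻¹ := by rw [eb']
        _ = a * (w⁻¹ * (z⁻¹ * w) * x) * a⁻¹ := by group
        _ = a * (w⁻¹ * (w * z⁻¹) * x) * a⁻¹ := by rw [czi w]
        _ = (a * z⁻¹) * x * a⁻¹ := by group
        _ = (z⁻¹ * a) * x * a⁻¹ := by rw [czi a]
        _ = z⁻¹ * (a * x * a⁻¹) := by group
        _ = z⁻¹ * (z * x) := by rw [ea']
        _ = x := by group
    calc a * b * a⁻¹ * b⁻¹ * x = ((a * b * a⁻¹ * b⁻¹) * x * (a * b * a⁻¹ * b⁻¹)⁻¹) * (a * b * a⁻¹ * b⁻¹) := by group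
      _ = x * (a * b * a⁻¹ * b⁻¹) := by rw [h2]
  have hmap : (⁅H.comap π, H.comap π⁆).map π = H := by
    rw [map_commutator, map_comap_eq_self_of_surjective hπ.surj, hH]
  have h2 : π g ∈ (⁅H.comap π, H.comap π⁆).map π := by rw [hmap]; exact hg
  obtain ⟨c, hc, hcg⟩ := h2
  have h3 : c * x = x * c := mem_centralizer_singleton_iff.1 (h1 hc)
  have h4 : ∀ y, (c⁻¹ * g) * y = y * (c⁻¹ * g) := hπ.comm (by rw [map_mul, map_inv, hcg, inv_mul_cancel])
  have e : g = c * (c⁻¹ * g) := by group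
  rw [e, mul_assoc, h4, ← mul_assoc, h3, mul_assoc]

end cent

section

variable {F : Type u} [Field F] [Fintype F] (hF : Fintype.card F = 4) {φ : F →+* F} (hφ : ∀ t, φ t = t ^ 2)
variable {L : Type v} [Group L] {π : L →* KK F}

omit [Fintype F] in
theorem V_eq : V φ j1 = RGD.Sup (X φ) (Q (fun x => 1 ≤ x 0)) := by
  show VJ cs RGDTwE6.isCartan (X φ) j1 = _
  unfold VJ
  rw [← j1_eq, NotJ_eq]

theorem th_eq : th = rho := rfl

theorem mem_P1 {x : Fin 4 → ℤ} (hx : x ∈ rts) (h0 : 0 ≤ x 0) : X φ x ≤ P φ j1 := by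
  rcases h0.lt_or_eq with h | h
  · refine le_trans ?_ VJ_le_PJ
    have h1 := V_eq (φ := φ)
    rw [show VJ cs RGDTwE6.isCartan (X φ) j1 = RGD.Sup (X φ) (Q (fun x => 1 ≤ x 0)) from h1]
    exact RGD.le_Sup (S := Q (fun x => 1 ≤ x 0)) ⟨hx, h⟩
  · refine le_trans (X_le_LJ ?_) LJ_le_PJ
    rw [← j1_eq, RootsJ_eq]
    exact ⟨hx, h.symm⟩

include hF hφ in
/-- the root group datum and its facts -/
theorem dat' : ∃ R : RGD cs RGDTwE6.isCartan 2 (RGDTwE6.T F 2) (RGDTwE6.nn hφ) (X φ), Dat R := by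
  have := charP_two hF
  have : Fact (Nat.Prime 2) := ⟨Nat.prime_two⟩
  exact ⟨RGDTwE6.rgd cs hφ (frob_frob hF) 2,
    Cfsg.Agent.KFacts.TwESix.Dat.dat cs hφ (frob_frob hF) (by rw [hF]; norm_num) (by norm_num)⟩

include hF hφ in
theorem card_X0' : Nat.card ↥(X φ (sr 0)) = 2 :=
  Cfsg.Agent.H326.QS.VPE.card_X0 hφ (frob_frob hF)

include hF hφ in
/-- `P_1` centralises `X θ` -/
theorem P1_comm {g x : KK F} (hg : g ∈ P φ j1) (hx : x ∈ X φ th) : g * x = x * g := by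
  obtain ⟨R, D⟩ := dat' hF hφ
  have h1 : P φ j1 ≤ centralizer ({x} : Set (KK F)) := by
    refine sup_le (sup_le ?_ ?_) ?_
    · intro t ht
      rw [mem_centralizer_singleton_iff]
      by_cases hx1 : x = 1
      · rw [hx1, mul_one, one_mul]
      have h2 : t * x * t⁻¹ ∈ X φ th := tor_mem R ((mem_rts cs).2 (by decide +kernel)) ht hx
      have h3 : t * x * t⁻¹ = x := by
        refine eq_of_long R (eq_of_card (card_X0' hF hφ)) (x := th) (by decide +kernel) (by decide +kernel) h2 hx ?_ hx1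
        intro h
        exact hx1 (by simpa [mul_assoc, mul_eq_one_iff_eq_inv] using h)
      calc t * x = (t * x * t⁻¹) * t := by group
        _ = x * t := by rw [h3]
    · rw [← j1_eq]
      refine RGD.Sup_le fun y hy c hc => ?_
      rw [RootsJ_eq] at hy
      rw [mem_centralizer_singleton_iff]
      exact GenV.rho_comm D hy.1 (by rw [hy.2]) hc hx
    · have h1 := V_eq (φ := φ)
      rw [show VJ cs RGDTwE6.isCartan (X φ) j1 = RGD.Sup (X φ) (Q (fun x => 1 ≤ x 0)) from h1]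
      refine RGD.Sup_le fun y hy c hc => ?_
      rw [mem_centralizer_singleton_iff]
      exact GenV.rho_comm D hy.1 (by have := hy.2; omega) hc hx
  exact mem_centralizer_singleton_iff.1 (h1 hg)

variable (hπ : PCE π)

include hF hφ hπ in
/-- **TSTAR.** -/
theorem tstar_of (perf : ⁅P φ j1, P φ j1⁆ = P φ j1) : ∃ t : L, π t ∈ X φ th ∧ π t ≠ 1 ∧ t * t = 1 ∧
    (∀ g, π g ∈ P φ j1 → g * t = t * g) ∧
    (∀ x y, π x ∈ V φ j1 → π y ∈ V φ j1 → x * y = y * x ∨ x * y = y * x * t) := by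
  have : Finite CoxeterMatrix.F₄.Group := finiteW cs
  obtain ⟨R, D⟩ := dat' hF hφ
  have hV := V_eq (φ := φ)
  have hVP : V φ j1 ≤ P φ j1 := VJ_le_PJ
  have ct : ∀ {g x : L}, π g ∈ P φ j1 → π x ∈ X φ th → g * x = x * g := fun {g x} hg hx =>
    cent_of_perf hπ perf (fun h hh => P1_comm hF hφ hh hx) hg
  have cV : ∀ {x y : L}, π x ∈ V φ j1 → π y ∈ V φ j1 → π ⁅x, y⁆ ∈ X φ th := fun {x y} hx hy => by
    rw [map_commutatorElement]
    rw [hV] at hx hy
    exact GenV.comm_mem_rho D hx hy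
  -- bilinearity
  have bil : ∀ {x y y' : L}, π x ∈ V φ j1 → π y ∈ V φ j1 → π y' ∈ V φ j1 → ⁅x, y * y'⁆ = ⁅x, y⁆ * ⁅x, y'⁆ := by
    intro x y y' hx hy hy'
    have e : ⁅x, y * y'⁆ = ⁅x, y⁆ * (y * ⁅x, y'⁆ * y⁻¹) := by
      simp only [commutatorElement_def]; group
    rw [e, ct (hVP hy) (cV hx hy'), mul_inv_cancel_right]
  have bilr : ∀ {x x' y : L}, π x ∈ V φ j1 → π x' ∈ V φ j1 → π y ∈ V φ j1 → ⁅x * x', y⁆ = ⁅x, y⁆ * ⁅x', y⁆ := by
    intro x x' y hx hx' hy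
    have e : ⁅x * x', y⁆ = (x * ⁅x', y⁆ * x⁻¹) * ⁅x, y⁆ := by
      simp only [commutatorElement_def]; group
    rw [e, ct (hVP hx) (cV hx' hy), mul_inv_cancel_right, ct (hVP ?_) (cV hx hy)]
    rw [map_commutatorElement, commutatorElement_def]
    exact mul_mem (mul_mem (mul_mem hx' hy) (inv_mem hx')) (inv_mem hy)
  -- the two elements
  obtain ⟨vK, hvK, hvK1⟩ := exists_ne_one R ((mem_rts cs).2 (show (![1, 3, 4, 2] : Fin 4 → ℤ) ∈ rts by decide +kernel))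
  obtain ⟨aK, haK, haK1⟩ := exists_ne_one R ((mem_rts cs).2 (show (sr 0 : Fin 4 → ℤ) ∈ rts by decide +kernel))
  obtain ⟨vh, rfl⟩ := hπ.surj vK
  obtain ⟨ah, rfl⟩ := hπ.surj aK
  have hvV : π vh ∈ V φ j1 := by
    rw [hV]; exact RGD.le_Sup (S := Q (fun x => 1 ≤ x 0)) ⟨by decide +kernel, by decide +kernel⟩ hvK
  have haV : π ah ∈ V φ j1 := by
    rw [hV]; exact RGD.le_Sup (S := Q (fun x => 1 ≤ x 0)) ⟨by decide +kernel, by decide +kernel⟩ haK
  have hA : Cfsg.Agent.KFacts.RgdSL.A2 cs RGDTwE6.isCartan ![1, 3, 4, 2] (sr 0) :=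
    a2 cs ((mem_rts cs).2 (by decide +kernel)) ((mem_rts cs).2 (by decide +kernel)) (by decide +kernel)
      (by decide +kernel)
  set t := ⁅vh, ah⁆ with ht
  have htX : π t ∈ X φ th := cV hvV haV
  have ht1 : π t ≠ 1 := by
    rw [ht, map_commutatorElement]
    exact hA.comm_ne_one R hvK hvK1 haK haK1
  have hvv : ∀ g, (vh * vh) * g = g * (vh * vh) := hπ.comm (by
    rw [map_mul]; exact sq R ((mem_rts cs).2 (by decide +kernel)) hvK)
  have htt : t * t = 1 := by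
    have h1 : ⁅vh * vh, ah⁆ = t * t := bilr hvV hvV haV
    rw [← h1]
    exact commutatorElement_eq_one_iff_mul_comm.2 (hvv ah)
  have htc : ∀ g, π g ∈ P φ j1 → g * t = t * g := fun g hg => ct hg htX
  have htinv : t⁻¹ = t := inv_eq_of_mul_eq_one_left htt
  -- membership in `{1, t}`
  have cl_mul : ∀ {a b : L}, (a = 1 ∨ a = t) → (b = 1 ∨ b = t) → (a * b = 1 ∨ a * b = t) := by
    rintro a b (rfl | rfl) (rfl | rfl)
    · left; rw [mul_one]
    · right; rw [one_mul]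
    · right; rw [mul_one]
    · left; exact htt
  have cl_inv : ∀ {a : L}, (a = 1 ∨ a = t) → (a⁻¹ = 1 ∨ a⁻¹ = t) := by
    rintro a (rfl | rfl)
    · left; exact inv_one
    · right; exact htinv
  -- `S`
  let S : Subgroup L :=
    { carrier := {w | π w ∈ V φ j1 ∧ (⁅vh, w⁆ = 1 ∨ ⁅vh, w⁆ = t)}
      one_mem' := ⟨by rw [map_one]; exact one_mem _, Or.inl (commutatorElement_one_right _)⟩
      mul_mem' := by
        rintro a b ⟨ha, ha'⟩ ⟨hb, hb'⟩
        refine ⟨by rw [map_mul]; exact mul_mem ha hb, ?_⟩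
        rw [bil hvV ha hb]
        exact cl_mul ha' hb'
      inv_mem' := by
        rintro a ⟨ha, ha'⟩
        have hai : π a⁻¹ ∈ V φ j1 := by rw [map_inv]; exact inv_mem ha
        refine ⟨hai, ?_⟩
        have h1 : ⁅vh, a⁻¹⁆ * ⁅vh, a⁆ = 1 := by
          rw [← bil hvV hai ha, inv_mul_cancel, commutatorElement_one_right]
        rw [eq_inv_of_mul_eq_one_left h1]
        exact cl_inv ha' }
  have memS : ∀ {w : L}, w ∈ S ↔ π w ∈ V φ j1 ∧ (⁅vh, w⁆ = 1 ∨ ⁅vh, w⁆ = t) := Iff.rfl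
  have hnorm : ∀ {g x : L}, π g ∈ P φ j1 → π x ∈ V φ j1 → π (g * x * g⁻¹) ∈ V φ j1 := by
    intro g x hg hx
    rw [map_mul, map_mul, map_inv]
    exact (mem_normalizer_iff.1 (PJ_le_normalizer_VJ R j1 hg) _).1 hx
  have hS : V φ j1 ≤ S.map π := by
    rw [hV]
    refine GenV.le_of_low D ?_ ?_ ?_
    · intro x hx
      by_cases hx1 : x = 1
      · rw [hx1]; exact one_mem _
      · have e : x = π ah := eq_of_card (card_X0' hF hφ) x hx _ haK hx1 haK1
        rw [e]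
        exact ⟨ah, memS.2 ⟨haV, Or.inr rfl⟩, rfl⟩
    · intro x hx
      obtain ⟨x, rfl⟩ := hπ.surj x
      refine ⟨x, memS.2 ⟨?_, Or.inl ?_⟩, rfl⟩
      · rw [hV]; exact RGD.le_Sup (S := Q (fun x => 1 ≤ x 0)) ⟨by decide +kernel, by decide +kernel⟩ hx
      · exact commutatorElement_eq_one_iff_mul_comm.2 (ct (hVP hvV) hx)
    · intro c hc hc0 hcp d hd hd0 u hu w hw
      obtain ⟨u, rfl⟩ := hπ.surj u
      obtain ⟨w, rfl⟩ := hπ.surj w
      have huP : π u ∈ P φ j1 := mem_P1 hc (by rw [hc0]) hu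
      have hwV : π w ∈ V φ j1 := by
        rw [hV]; exact RGD.le_Sup (S := Q (fun x => 1 ≤ x 0)) ⟨hd, hd0⟩ hw
      have huw : π (u * w * u⁻¹) ∈ V φ j1 := hnorm huP hwV
      have hwi : π w⁻¹ ∈ V φ j1 := by rw [map_inv]; exact inv_mem hwV
      have e0 : ⁅u, w⁆ = (u * w * u⁻¹) * w⁻¹ := commutatorElement_def _ _
      refine ⟨⁅u, w⁆, memS.2 ⟨?_, Or.inl ?_⟩, map_commutatorElement _ _ _⟩
      · rw [e0, map_mul]; exact mul_mem huw hwi
      · rw [e0, bil hvV huw hwi]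
        -- `u` centralises `v` modulo the kernel
        have hb : 0 ≤ bf c ![1, 3, 4, 2] := by
          have : ∀ c ∈ rts, c 0 = 0 → (∀ k, 0 ≤ c k) → 0 ≤ bf c ![1, 3, 4, 2] := by decide +kernel
          exact this c hc hc0 hcp
        have huv : π u * π vh = π vh * π u := comm_long D ((mem_rts cs).2 hc) ((mem_rts cs).2 (by decide +kernel))
          (by decide +kernel) hb hu hvK
        have hz : ∀ g, (vh⁻¹ * (u⁻¹ * vh * u)) * g = g * (vh⁻¹ * (u⁻¹ * vh * u)) := hπ.comm (by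
          rw [map_mul, map_mul, map_mul, map_inv, map_inv, mul_assoc (π u)⁻¹, ← huv]; group)
        set z := vh⁻¹ * (u⁻¹ * vh * u) with hzd
        have e1 : u⁻¹ * vh * u = vh * z := by rw [hzd]; group
        have e2 : ⁅vh, u * w * u⁻¹⁆ = u * ⁅u⁻¹ * vh * u, w⁆ * u⁻¹ := by
          simp only [commutatorElement_def]; group
        have e3 : ⁅vh * z, w⁆ = ⁅vh, w⁆ := by
          simp only [commutatorElement_def, mul_inv_rev]
          calc vh * z * w * (z⁻¹ * vh⁻¹) * w⁻¹ = vh * (z * w) * z⁻¹ * vh⁻¹ * w⁻¹ := by group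
            _ = vh * (w * z) * z⁻¹ * vh⁻¹ * w⁻¹ := by rw [hz]
            _ = _ := by group
        rw [e2, e1, e3, ct huP (cV hvV hwV), mul_inv_cancel_right, ← bil hvV hwV hwi, mul_inv_cancel,
          commutatorElement_one_right]
  have hS' : ∀ {w : L}, π w ∈ V φ j1 → ⁅vh, w⁆ = 1 ∨ ⁅vh, w⁆ = t := by
    intro w hw
    obtain ⟨s, hs, e⟩ := hS hw
    have hz : ∀ g, (s⁻¹ * w) * g = g * (s⁻¹ * w) := hπ.comm (by rw [map_mul, map_inv, e, inv_mul_cancel])
    have e1 : w = s * (s⁻¹ * w) := by group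
    have hz' : π (s⁻¹ * w) ∈ V φ j1 := by rw [map_mul, map_inv, e, inv_mul_cancel]; exact one_mem _
    rw [e1, bil hvV (memS.1 hs).1 hz', commutatorElement_eq_one_iff_mul_comm.2 (hz vh).symm, mul_one]
    exact (memS.1 hs).2
  -- `N`
  let N : Subgroup L :=
    { carrier := {x | π x ∈ V φ j1 ∧ ∀ w, π w ∈ V φ j1 → (⁅x, w⁆ = 1 ∨ ⁅x, w⁆ = t)}
      one_mem' := ⟨by rw [map_one]; exact one_mem _, fun w _ => Or.inl (commutatorElement_one_left _)⟩
      mul_mem' := by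
        rintro a b ⟨ha, ha'⟩ ⟨hb, hb'⟩
        refine ⟨by rw [map_mul]; exact mul_mem ha hb, fun w hw => ?_⟩
        rw [bilr ha hb hw]
        exact cl_mul (ha' w hw) (hb' w hw)
      inv_mem' := by
        rintro a ⟨ha, ha'⟩
        have hai : π a⁻¹ ∈ V φ j1 := by rw [map_inv]; exact inv_mem ha
        refine ⟨hai, fun w hw => ?_⟩
        have h1 : ⁅a⁻¹, w⁆ * ⁅a, w⁆ = 1 := by
          rw [← bilr hai ha hw, inv_mul_cancel, commutatorElement_one_left]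
        rw [eq_inv_of_mul_eq_one_left h1]
        exact cl_inv (ha' w hw) }
  have memN : ∀ {x : L}, x ∈ N ↔ π x ∈ V φ j1 ∧ ∀ w, π w ∈ V φ j1 → (⁅x, w⁆ = 1 ∨ ⁅x, w⁆ = t) := Iff.rfl
  have hNconj : ∀ {g x : L}, π g ∈ P φ j1 → x ∈ N → g * x * g⁻¹ ∈ N := by
    intro g x hg hx
    refine memN.2 ⟨hnorm hg (memN.1 hx).1, fun w hw => ?_⟩
    have hgi : π g⁻¹ ∈ P φ j1 := by rw [map_inv]; exact inv_mem hg
    have h1 := (memN.1 hx).2 (g⁻¹ * w * g⁻¹⁻¹) (hnorm hgi hw)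
    have e : ⁅g * x * g⁻¹, w⁆ = g * ⁅x, g⁻¹ * w * g⁻¹⁻¹⁆ * g⁻¹ := by
      simp only [commutatorElement_def]; group
    rw [e]
    rcases h1 with h1 | h1
    · left; rw [h1]; group
    · right; rw [h1, htc g hg]; group
  have hkerN : ∀ {z : L}, π z = 1 → z ∈ N := fun {z} hz =>
    memN.2 ⟨by rw [hz]; exact one_mem _, fun w _ => Or.inl (commutatorElement_eq_one_iff_mul_comm.2 (hπ.comm hz w))⟩
  have hN : V φ j1 ≤ N.map π := by
    have hvN : vh ∈ N := memN.2 ⟨hvV, fun w hw => hS' hw⟩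
    rw [hV]
    refine GenV.le_of_high D ?_ ?_ ?_
    · intro x hx
      by_cases hx1 : x = 1
      · rw [hx1]; exact one_mem _
      · have e : x = π vh := eq_of_long R (eq_of_card (card_X0' hF hφ)) (by decide +kernel) (by decide +kernel) hx hvK
          hx1 hvK1
        rw [e]
        exact ⟨vh, hvN, rfl⟩
    · intro x hx
      obtain ⟨x, rfl⟩ := hπ.surj x
      refine ⟨x, memN.2 ⟨?_, fun w hw => Or.inl ?_⟩, rfl⟩
      · rw [hV]; exact RGD.le_Sup (S := Q (fun x => 1 ≤ x 0)) ⟨by decide +kernel, by decide +kernel⟩ hx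
      · exact commutatorElement_eq_one_iff_mul_comm.2 (ct (hVP hw) hx).symm
    · intro c hc hc0 d hd hd0 hdN u hu w hw
      obtain ⟨u', hu', rfl⟩ := hdN hu
      obtain ⟨w, rfl⟩ := hπ.surj w
      have hwP : π w ∈ P φ j1 := mem_P1 hc (by rw [hc0]) hw
      refine ⟨⁅u', w⁆, ?_, map_commutatorElement _ _ _⟩
      have e : ⁅u', w⁆ = u' * (w * u'⁻¹ * w⁻¹) := by rw [commutatorElement_def]; group
      rw [SetLike.mem_coe, e]
      exact mul_mem hu' (hNconj hwP (inv_mem hu'))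
  refine ⟨t, htX, ht1, htt, htc, fun x y hx hy => ?_⟩
  obtain ⟨s, hs, e⟩ := hN hx
  have hxN : x ∈ N := by
    have e1 : x = s * (s⁻¹ * x) := by group
    rw [e1]
    exact mul_mem hs (hkerN (by rw [map_mul, map_inv, e, inv_mul_cancel]))
  have e2 : x * y = ⁅x, y⁆ * (y * x) := by rw [commutatorElement_def]; group
  rcases (memN.1 hxN).2 y hy with h1 | h1
  · left; rw [e2, h1, one_mul]
  · right
    rw [e2, h1, ← htc (y * x) (by rw [map_mul]; exact mul_mem (hVP hy) (hVP hx))]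

include hF hφ hπ in
/-- **TSTAR**, in the form of the `2`-part `lft 2 π V_1`. -/
theorem tstar_lft_of (perf : ⁅P φ j1, P φ j1⁆ = P φ j1) : ∃ t : L, π t ∈ X φ th ∧ π t ≠ 1 ∧ t * t = 1 ∧
    (∀ g, π g ∈ P φ j1 → g * t = t * g) ∧
    (∀ x ∈ RGDLift.lft 2 π (V φ j1), ∀ y ∈ RGDLift.lft 2 π (V φ j1), x * y = y * x ∨ x * y = y * x * t) := by
  obtain ⟨t, h1, h2, h3, h4, h5⟩ := tstar_of hF hφ hπ perf
  exact ⟨t, h1, h2, h3, h4, fun x hx y hy => h5 x y (RGDLift.map_lft_le 2 π _ (mem_map_of_mem π hx))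
    (RGDLift.map_lft_le 2 π _ (mem_map_of_mem π hy))⟩

end

end Cfsg.Agent.H326.QF
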